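/-
Trace identities for a group `K ⋊ E` (with `E` acting fixed-point-freely on `K`) acting on an abelian group.
-/
import Cfsg.Agent.Grp.Cores

set_option autoImplicit false

namespace CL.Fh

section Fs
variable {M : Type*} [Group M] [Finite M]

/-- the elements of a subgroup of a finite group as a finset -/
noncomputable def fs (B : Subgroup M) : Finset M := (Set.toFinite (B : Set M)).toFinset

@[simp] theorem mem_fs {B : Subgroup M} {x : M} : x ∈ fs B ↔ x ∈ B := by
  simp [fs]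

theorem card_fs (B : Subgroup M) : (fs B).card = Nat.card B := by
  rw [fs, ← Set.ncard_eq_toFinset_card, ← Nat.card_coe_set_eq]; rfl

variable {V : Type*} [CommGroup V] [MulDistribMulAction M V]

/-- the trace (norm) map of a subgroup -/
noncomputable def tr (B : Subgroup M) : V →* V where
  toFun v := ∏ b ∈ fs B, b • v
  map_one' := by simp
  map_mul' v w := by simp [smul_mul', Finset.prod_mul_distrib]

theorem tr_apply (B : Subgroup M) (v : V) : tr B v = ∏ b ∈ fs B, b • v := rfl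

theorem smul_tr {B : Subgroup M} {b : M} (hb : b ∈ B) (v : V) : b • tr B v = tr B v := by
  rw [tr_apply, Finset.smul_prod']
  refine Finset.prod_nbij' (fun x => b * x) (fun x => b⁻¹ * x) ?_ ?_ ?_ ?_ ?_
  · intro x hx; exact mem_fs.2 (B.mul_mem hb (mem_fs.1 hx))
  · intro x hx; exact mem_fs.2 (B.mul_mem (B.inv_mem hb) (mem_fs.1 hx))
  · intro x _; simp
  · intro x _; simp
  · intro x _; rw [mul_smul]

theorem tr_of_fixed {B : Subgroup M} {v : V} (h : ∀ b ∈ B, b • v = v) : tr B v = v ^ Nat.card B := by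
  rw [tr_apply, ← card_fs, ← Finset.prod_const]
  exact Finset.prod_congr rfl fun b hb => h b (mem_fs.1 hb)

theorem smul_tr_comm {B : Subgroup M} {x : M} (h : ∀ b ∈ B, x * b = b * x) (v : V) :
    x • tr B v = tr B (x • v) := by
  rw [tr_apply, tr_apply, Finset.smul_prod']
  exact Finset.prod_congr rfl fun b hb => by rw [← mul_smul, h b (mem_fs.1 hb), mul_smul]

theorem tr_mem {B : Subgroup M} {W : Subgroup V} {v : V} (h : ∀ b ∈ B, b • v ∈ W) : tr B v ∈ W :=
  W.prod_mem fun b hb => h b (mem_fs.1 hb)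

theorem map_tr_eq {B S : Subgroup M} (f : V →* V) {v : V} (h : ∀ b ∈ B, b ∉ S → f (b • v) = 1) :
    f (tr B v) = f (tr (B ⊓ S) v) := by
  rw [tr_apply, tr_apply, map_prod, map_prod]
  refine (Finset.prod_subset (fun x hx => mem_fs.2 (Subgroup.mem_inf.1 (mem_fs.1 hx)).1) fun x hx hx' => ?_).symm
  exact h x (mem_fs.1 hx) fun hs => hx' (mem_fs.2 ⟨mem_fs.1 hx, hs⟩)

/-- Lemma T: if the traces of `K` and `E` vanish on an invariant set `W`, then `W` has exponent dividing `|K|`. -/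
theorem pow_card_eq_one_of_tr {K E : Subgroup M} (hEK : ∀ e ∈ E, ∀ k ∈ K, e * k * e⁻¹ ∈ K)
    (hf : ∀ e ∈ E, e ≠ 1 → ∀ k ∈ K, k * e = e * k → k = 1) {W : Subgroup V}
    (hKW : ∀ k ∈ K, ∀ w ∈ W, k • w ∈ W) (hEW : ∀ e ∈ E, ∀ w ∈ W, e • w ∈ W)
    (hK : ∀ w ∈ W, tr K w = 1) (hE : ∀ w ∈ W, tr E w = 1) {w : V} (hw : w ∈ W) :
    w ^ Nat.card K = 1 := by
  classical
  have h1 : ∏ k ∈ fs K, ∏ e ∈ fs E, (k⁻¹ * e * k) • w = 1 := by
    refine Finset.prod_eq_one fun k hk => ?_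
    have := congrArg (fun x => k⁻¹ • x) (hE _ (hKW k (mem_fs.1 hk) w hw))
    simp only [tr_apply, Finset.smul_prod', smul_one] at this
    rw [← this]
    exact Finset.prod_congr rfl fun e _ => by rw [mul_smul, mul_smul]
  rw [Finset.prod_comm, ← Finset.mul_prod_erase _ _ (mem_fs.2 E.one_mem)] at h1
  have h2 : ∏ e ∈ (fs E).erase 1, ∏ k ∈ fs K, (k⁻¹ * e * k) • w = 1 := by
    refine Finset.prod_eq_one fun e he => ?_
    have he1 := Finset.ne_of_mem_erase he
    have heE := mem_fs.1 (Finset.mem_of_mem_erase he)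
    rw [← hK _ (hEW e heE w hw), tr_apply]
    have hmaps : ∀ k ∈ fs K, k⁻¹ * e * k * e⁻¹ ∈ fs K := fun k hk => by
      have := K.mul_mem (K.inv_mem (mem_fs.1 hk)) (hEK e heE k (mem_fs.1 hk))
      exact mem_fs.2 (by simpa [mul_assoc] using this)
    have hinj : ∀ k ∈ fs K, ∀ l ∈ fs K, k⁻¹ * e * k * e⁻¹ = l⁻¹ * e * l * e⁻¹ → k = l := by
      intro k hk l hl h
      have h3 : l * k⁻¹ * e = e * (l * k⁻¹) := by
        have h4 : k⁻¹ * e * k = l⁻¹ * e * l := mul_right_cancel h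
        calc l * k⁻¹ * e = l * (k⁻¹ * e * k) * k⁻¹ := by group
          _ = e * (l * k⁻¹) := by rw [h4]; group
      have := hf e heE he1 _ (K.mul_mem (mem_fs.1 hl) (K.inv_mem (mem_fs.1 hk))) h3
      exact (mul_inv_eq_one.1 this).symm
    refine Finset.prod_bij (fun k _ => k⁻¹ * e * k * e⁻¹) hmaps (fun k hk l hl h => hinj k hk l hl h)
      (fun b hb => ?_) (fun k _ => by rw [← mul_smul, inv_mul_cancel_right])
    obtain ⟨a, ha, h⟩ := Finset.surj_on_of_inj_on_of_card_le (fun k _ => k⁻¹ * e * k * e⁻¹) hmaps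
      (fun k l hk hl h => hinj k hk l hl h) le_rfl b hb
    exact ⟨a, ha, h.symm⟩
  rw [h2, mul_one] at h1
  rw [← h1, ← card_fs, ← Finset.prod_const]
  exact Finset.prod_congr rfl fun k _ => by simp

theorem exists_orbit_section (H X : Type*) [Group H] [MulAction H X] :
    ∃ (r : X → X) (s : X → H), (∀ x, s x • r x = x) ∧ ∀ (e : H) (x : X), r (e • x) = r x := by
  have h : ∀ x : X, ∃ e : H, e • (Quotient.out (Quotient.mk (MulAction.orbitRel H X) x)) = x := fun x => by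
    have := Quotient.exact (Quotient.out_eq (Quotient.mk (MulAction.orbitRel H X) x)).symm
    exact this
  choose s hs using h
  refine ⟨_, s, hs, fun e x => ?_⟩
  congr 1
  exact Quotient.sound (MulAction.mem_orbit x e)

/-- Lemma C: every crossed homomorphism `E → V` is principal when the trace of `K` vanishes on `V`. -/
theorem exists_cocycle_eq {K E : Subgroup M} (hEK : ∀ e ∈ E, ∀ k ∈ K, e * k * e⁻¹ ∈ K)
    (hf : ∀ e ∈ E, e ≠ 1 → ∀ k ∈ K, k * e = e * k → k = 1) (hK : ∀ w : V, tr K w = 1)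
    (d : E → V) (hd : ∀ a b : E, d (a * b) = d a * (a : M) • d b) :
    ∃ v : V, ∀ a : E, d a * (a : M) • v = v := by
  classical
  let _ : MulAction E M := MulAction.compHom M ((MulAut.conj (G := M)).comp E.subtype)
  have hsm : ∀ (e : E) (x : M), e • x = (e : M) * x * (e : M)⁻¹ := fun e x => rfl
  obtain ⟨r, s, hs, hr⟩ := exists_orbit_section E M
  have hmem : ∀ (e : E), ∀ k ∈ (fs K).erase 1, e • k ∈ (fs K).erase 1 := fun e k hk => by
    refine Finset.mem_erase.2 ⟨fun h => Finset.ne_of_mem_erase hk ?_,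
      mem_fs.2 (hEK e e.2 k (mem_fs.1 (Finset.mem_of_mem_erase hk)))⟩
    rw [hsm] at h
    simpa using h
  have hse : ∀ (e : E), ∀ k ∈ (fs K).erase 1, s (e • k) = e * s k := by
    intro e k hk
    have h1 : ((e * s k)⁻¹ * s (e • k)) • r k = r k := by
      rw [mul_smul, ← hr e k, hs, hr, inv_smul_eq_iff, mul_smul, hs]
    have h2 : r k ∈ (fs K).erase 1 := by
      have := hmem (s k)⁻¹ k hk
      rwa [inv_smul_eq_iff.2 (hs k).symm] at this
    by_contra hne
    refine Finset.ne_of_mem_erase h2 (hf _ ((e * s k)⁻¹ * s (e • k)).2 (fun h => hne ?_) _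
      (mem_fs.1 (Finset.mem_of_mem_erase h2)) ?_)
    · exact (inv_mul_eq_one.1 (Subtype.ext h)).symm
    · rw [hsm] at h1
      exact (mul_inv_eq_iff_eq_mul.1 h1).symm
  refine ⟨(∏ k ∈ (fs K).erase 1, k • d (s k))⁻¹, fun a => ?_⟩
  have h1 : (a : M) • ∏ k ∈ (fs K).erase 1, k • d (s k) =
      ∏ k ∈ (fs K).erase 1, k • ((d a)⁻¹ * d (s k)) := by
    rw [Finset.smul_prod']
    refine Finset.prod_nbij' (fun x => a • x) (fun x => a⁻¹ • x) (hmem a) (hmem a⁻¹)
      (fun x _ => inv_smul_smul a x) (fun x _ => smul_inv_smul a x) fun x hx => ?_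
    rw [hse a x hx, hd, inv_mul_cancel_left, hsm, ← mul_smul, ← mul_smul, inv_mul_cancel_right]
  have h2 : ∏ k ∈ (fs K).erase 1, k • (d a)⁻¹ = d a := by
    have := hK (d a)⁻¹
    rw [tr_apply, ← Finset.mul_prod_erase _ _ (mem_fs.2 K.one_mem), one_smul] at this
    exact (inv_mul_eq_one.1 this).symm
  simp only [smul_mul', Finset.prod_mul_distrib, h2] at h1
  rw [smul_inv', h1, mul_inv, mul_inv_cancel_left]

end Fs

/-- the fixed points of a subgroup of an acting group -/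
def fx {M : Type*} [Group M] (B : Subgroup M) (G : Type*) [Group G] [MulDistribMulAction M G] : Subgroup G where
  carrier := {g | ∀ b ∈ B, b • g = g}
  one_mem' := fun b _ => smul_one b
  mul_mem' := fun hx hy b hb => by rw [smul_mul', hx b hb, hy b hb]
  inv_mem' := fun hx b hb => by rw [smul_inv', hx b hb]

theorem mem_fx {M : Type*} [Group M] {B : Subgroup M} {G : Type*} [Group G] [MulDistribMulAction M G] {g : G} :
    g ∈ fx B G ↔ ∀ b ∈ B, b • g = g := Iff.rfl

theorem eq_one_of_pow_of_coprime {G : Type*} [Group G] {x : G} {n m : ℕ} (h : x ^ n = 1) (hm : x ^ m = 1)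
    (hc : n.Coprime m) : x = 1 :=
  orderOf_eq_one_iff.1 (Nat.eq_one_of_dvd_coprimes hc (orderOf_dvd_of_pow_eq_one h) (orderOf_dvd_of_pow_eq_one hm))

section Key
variable {A V : Type*} [Group A] [Finite A] [CommGroup V] [Finite V] [MulDistribMulAction A V]

theorem key_mem {K H : Subgroup A} [hK : K.Normal] (hf : ∀ e ∈ H, e ≠ 1 → ∀ k ∈ K, k * e = e * k → k = 1)
    (hKV : ∀ v : V, (∀ k ∈ K, k • v = v) → v = 1) (hcK : (Nat.card K).Coprime (Nat.card V))
    {U : Subgroup (MulAut V)} (hU : ∀ x ∈ U, ∀ y ∈ U, x * y = y * x) (hcU : (Nat.card U).Coprime (Nat.card V))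
    (hUA : ∀ a : A, ∀ x ∈ U, MulDistribMulAction.toMulAut A V a * x * (MulDistribMulAction.toMulAut A V a)⁻¹ ∈ U)
    {u : MulAut V} (hu : u ∈ U) (hfix : ∀ v : V, (∀ h ∈ H, h • v = v) → u • v = v)
    {B : Subgroup (MulAut V)} (hBU : B ≤ U) (hB : fx B V ≠ ⊥)
    (hmax : ∀ B' : Subgroup (MulAut V), B' ≤ U → fx B' V ≠ ⊥ → Nat.card B' ≤ Nat.card B) : u ∈ B := by
  set φ := MulDistribMulAction.toMulAut A V with hφ
  have hφa : ∀ (a : A) (v : V), φ a • v = a • v := fun a v => rfl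
  have hm : ∀ x ∈ U, ∀ w ∈ fx B V, w ≠ 1 → x • w = w → x ∈ B := by
    intro x hx w hw h1 hxw
    have hle : B ≤ U ⊓ MulAction.stabilizer (MulAut V) w := fun b hb => ⟨hBU hb, hw b hb⟩
    have := Subgroup.eq_of_le_of_card_ge hle (hmax _ inf_le_left fun h =>
      h1 (h.le (show w ∈ fx _ V from fun b hb => hb.2)))
    rw [this]
    exact ⟨hx, hxw⟩
  set S := (Subgroup.normalizer (B : Set (MulAut V))).comap φ with hS
  have hSW : ∀ a ∈ S, ∀ w ∈ fx B V, a • w ∈ fx B V := by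
    intro a ha w hw b hb
    have h1 : (φ a)⁻¹ * b * (φ a)⁻¹⁻¹ ∈ B :=
      (Subgroup.mem_normalizer_iff.1 ((Subgroup.normalizer (B : Set (MulAut V))).inv_mem ha) b).1 hb
    have := hw _ h1
    rw [inv_inv, mul_smul, mul_smul, inv_smul_eq_iff, hφa] at this
    exact this
  have hcomm : ∀ x ∈ U, ∀ v : V, x • tr B v = tr B (x • v) := fun x hx v =>
    smul_tr_comm (fun b hb => hU x hx b (hBU hb)) v
  have hkill : ∀ w ∈ fx B V, ∀ a : A, a ∉ S → tr B (a • w) = 1 := by
    intro w hw a ha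
    by_contra h1
    refine ha (Subgroup.mem_normalizer_fintype fun b hb => ?_)
    have hbU := hUA a b (hBU hb)
    refine hm _ hbU _ (fun c hc => smul_tr hc _) h1 ?_
    rw [hcomm _ hbU, mul_smul, mul_smul, ← hφa, inv_smul_smul, hw b hb]
  have hcB : ∀ x : V, x ^ Nat.card B = 1 → x = 1 := fun x hx =>
    eq_one_of_pow_of_coprime hx pow_card_eq_one' (hcU.coprime_dvd_left (Subgroup.card_dvd_of_le hBU))
  by_contra hne
  refine hB (eq_bot_iff.2 fun w hw => ?_)
  have := pow_card_eq_one_of_tr (K := K ⊓ S) (E := H ⊓ S) (W := fx B V)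
    (fun e he k hk => ⟨hK.conj_mem k hk.1 e, S.mul_mem (S.mul_mem he.2 hk.2) (S.inv_mem he.2)⟩)
    (fun e he h1 k hk => hf e he.1 h1 k hk.1) (fun k hk => hSW k hk.2) (fun k hk => hSW k hk.2)
    (fun w hw => ?_) (fun w hw => ?_) hw
  · exact eq_one_of_pow_of_coprime this pow_card_eq_one'
      (hcK.coprime_dvd_left (Subgroup.card_dvd_of_le inf_le_left))
  · have h1 : tr (K ⊓ S) w ∈ fx B V := tr_mem fun k hk => hSW k hk.2 w hw
    refine hcB _ ?_
    rw [← tr_of_fixed h1, ← map_tr_eq (tr B) fun k _ hk => hkill w hw k hk,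
      hKV _ fun k hk => smul_tr hk w, map_one]
  · have h1 : tr (H ⊓ S) w ∈ fx B V := tr_mem fun k hk => hSW k hk.2 w hw
    refine hcB _ ?_
    by_contra h2
    refine hne (hm u hu _ ((fx B V).pow_mem h1 _) h2 ?_)
    rw [← tr_of_fixed h1, ← map_tr_eq (tr B) fun k _ hk => hkill w hw k hk, hcomm u hu,
      hfix _ fun k hk => smul_tr hk w]

/-- Key lemma: an element of an invariant abelian coprime group of automorphisms that fixes `C_V(H)` has, together
with all its conjugates, a nontrivial common fixed point. -/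
theorem key [Nontrivial V] {K H : Subgroup A} [hK : K.Normal]
    (hf : ∀ e ∈ H, e ≠ 1 → ∀ k ∈ K, k * e = e * k → k = 1)
    (hKV : ∀ v : V, (∀ k ∈ K, k • v = v) → v = 1) (hcK : (Nat.card K).Coprime (Nat.card V))
    {U : Subgroup (MulAut V)} (hU : ∀ x ∈ U, ∀ y ∈ U, x * y = y * x) (hcU : (Nat.card U).Coprime (Nat.card V))
    (hUA : ∀ a : A, ∀ x ∈ U, MulDistribMulAction.toMulAut A V a * x * (MulDistribMulAction.toMulAut A V a)⁻¹ ∈ U)
    {u : MulAut V} (hu : u ∈ U) (hfix : ∀ v : V, (∀ h ∈ H, h • v = v) → u • v = v) :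
    ∃ v : V, v ≠ 1 ∧ ∀ a : A,
      (MulDistribMulAction.toMulAut A V a * u * (MulDistribMulAction.toMulAut A V a)⁻¹) • v = v := by
  obtain ⟨B, ⟨hBU, hB⟩, hmax⟩ := Set.exists_max_image {B : Subgroup (MulAut V) | B ≤ U ∧ fx B V ≠ ⊥}
    (fun B => Nat.card B) (Set.toFinite _) ⟨⊥, bot_le, fun h => by
      obtain ⟨v, hv⟩ := exists_ne (1 : V)
      exact hv (h.le (show v ∈ fx ⊥ V from fun b hb => by rw [Subgroup.mem_bot.1 hb, one_smul]))⟩
  obtain ⟨⟨v, hv⟩, hv1⟩ := Subgroup.ne_bot_iff_exists_ne_one.1 hB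
  have hv1' : v ≠ 1 := fun h => hv1 (Subtype.ext h)
  refine ⟨v, hv1', fun a => ?_⟩
  set φ := MulDistribMulAction.toMulAut A V with hφ
  have := key_mem hf hKV hcK hU hcU hUA hu hfix (B := B.map (MulAut.conj (φ a⁻¹)).toMonoidHom) ?_ ?_ ?_
  · obtain ⟨b, hb, e⟩ := this
    have e' : φ a * u * (φ a)⁻¹ = b := by
      rw [← e]; simp [mul_assoc]
    rw [e']
    exact hv b hb
  · rintro _ ⟨b, hb, rfl⟩
    exact hUA _ b (hBU hb)
  · intro h
    have h1 : φ a⁻¹ • v ∈ fx (B.map (MulAut.conj (φ a⁻¹)).toMonoidHom) V := by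
      rintro _ ⟨b, hb, rfl⟩
      change (φ a⁻¹ * b * (φ a⁻¹)⁻¹) • _ = _
      rw [mul_smul, mul_smul, inv_smul_smul, hv b hb]
    rw [h, Subgroup.mem_bot, smul_eq_iff_eq_inv_smul, smul_one] at h1
    exact hv1' h1
  · intro B' h1 h2
    rw [Subgroup.card_map_of_injective (MulAut.conj (φ a⁻¹)).injective]
    exact hmax B' ⟨h1, h2⟩

end Key

end CL.Fh
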