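/-
Fixed points of `F` and `H` in quotients by solvable invariant normal subgroups, for a group `F ⋊ H` of operators
with `F` nilpotent, `H` fixed-point-free on `F` and `F` fixed-point-free on the group acted upon.
-/
import Cfsg.Agent.Fh.Trace
import Cfsg.Agent.Grp.CoprimeAct
import Cfsg.Agent.Grp.Fitting
import Cfsg.Agent.Grp.MinNormal

set_option autoImplicit false
open Cfsg CL.Grp

namespace CL.Fh

universe u

/-- invariance of a subgroup under a group of operators -/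
abbrev AInv (A : Type*) [Group A] {G : Type*} [Group G] [MulDistribMulAction A G] (U : Subgroup G) : Prop :=
  ∀ a : A, ∀ x ∈ U, a • x ∈ U

variable {A : Type*} [Group A]

/-- the standing hypotheses on the operator group -/
structure Ctx (F H : Subgroup A) : Prop where
  normal : F.Normal
  nil : Group.IsNilpotent F
  fpf : ∀ e ∈ H, e ≠ 1 → ∀ k ∈ F, k * e = e * k → k = 1

section Inv
variable {G : Type*} [Group G] [MulDistribMulAction A G]

theorem AInv.inf {U W : Subgroup G} (hU : AInv A U) (hW : AInv A W) : AInv A (U ⊓ W) :=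
  fun a x hx => ⟨hU a x hx.1, hW a x hx.2⟩

theorem AInv.map_subtype {U : Subgroup G} (hU : AInv A U) (K : Subgroup U) [K.Characteristic] :
    AInv A (K.map U.subtype) := by
  let _ := subAction U hU
  rintro a _ ⟨k, hk, rfl⟩
  exact ⟨a • k, smul_mem_of_characteristic K a k hk, rfl⟩

theorem AInv.normalizer {U : Subgroup G} (hU : AInv A U) : AInv A (Subgroup.normalizer (U : Set G)) := by
  intro a x hx
  rw [Subgroup.mem_normalizer_iff] at hx ⊢
  intro h
  rw [← smul_mem_iff_of_invariant hU a⁻¹ h, hx, ← smul_mem_iff_of_invariant hU a]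
  simp [smul_mul', smul_inv']

theorem AInv.centralizer {U : Subgroup G} (hU : AInv A U) : AInv A (Subgroup.centralizer (U : Set G)) := by
  intro a x hx h hh
  have := congrArg (fun y => a • y) (hx _ (hU a⁻¹ h hh))
  simpa [smul_mul'] using this

theorem AInv.commutator {U : Subgroup G} (hU : AInv A U) : AInv A ⁅U, U⁆ := by
  intro a x hx
  have : (⁅U, U⁆ : Subgroup G).map (MulDistribMulAction.toMonoidHom G a) ≤ ⁅U, U⁆ := by
    rw [Subgroup.map_commutator]
    have h : U.map (MulDistribMulAction.toMonoidHom G a) ≤ U := by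
      rintro _ ⟨y, hy, rfl⟩; exact hU a y hy
    exact Subgroup.commutator_mono h h
  exact this ⟨x, hx, rfl⟩

theorem ainv_fx (K : Subgroup A) [hK : K.Normal] : AInv A (fx K G) := fun a x hx k hk => by
  have := hx _ (hK.conj_mem' k hk a)
  rwa [mul_smul, mul_smul, inv_smul_eq_iff] at this

variable [Finite G]

theorem dvd_card_fixed {p : ℕ} [Fact p.Prime] {P : Subgroup A} (hP : IsPGroup p P) {Y : Subgroup G}
    (hY : ∀ a ∈ P, ∀ y ∈ Y, a • y ∈ Y) (hp : p ∣ Nat.card Y) : p ∣ Nat.card (Y ⊓ fx P G : Subgroup G) := by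
  let _ := subAction (A := P) Y fun a x hx => hY a a.2 x hx
  have h := hP.card_modEq_card_fixedPoints Y
  have e : MulAction.fixedPoints P Y ≃ (Y ⊓ fx P G : Subgroup G) :=
    { toFun := fun y => ⟨y.1, y.1.2, fun a ha => congrArg Subtype.val (y.2 ⟨a, ha⟩)⟩
      invFun := fun y => ⟨⟨y.1, y.2.1⟩, fun a => Subtype.ext (y.2.2 a a.2)⟩
      left_inv := fun _ => rfl
      right_inv := fun _ => rfl }
  rw [Nat.card_congr e] at h
  exact Nat.modEq_zero_iff_dvd.mp (h.symm.trans hp.modEq_zero_nat)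

/-- a minimal invariant normal subgroup inside a solvable one -/
theorem exists_min {N : Subgroup G} (hN : N.Normal) (hNA : AInv A N) (hs : Group.IsSolvable N) (h1 : N ≠ ⊥) :
    ∃ V : Subgroup G, V ≤ N ∧ V ≠ ⊥ ∧ V.Normal ∧ AInv A V ∧ (∀ x ∈ V, ∀ y ∈ V, x * y = y * x) ∧
      (∃ p : ℕ, p.Prime ∧ IsPGroup p V) ∧ ∀ W : Subgroup G, W ≤ V → W.Normal → AInv A W → W ≠ ⊥ → W = V := by
  obtain ⟨V, ⟨hVN, hV1, hVn, hVA⟩, hmin⟩ := Set.exists_min_image
    {V : Subgroup G | V ≤ N ∧ V ≠ ⊥ ∧ V.Normal ∧ AInv A V} (fun V => Nat.card V) (Set.toFinite _)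
    ⟨N, le_rfl, h1, hN, hNA⟩
  have hm : ∀ W : Subgroup G, W ≤ V → W.Normal → AInv A W → W ≠ ⊥ → W = V := fun W a b c d =>
    Subgroup.eq_of_le_of_card_ge a (hmin W ⟨a.trans hVN, d, b, c⟩)
  have hsV : Group.IsSolvable V := isSolvable_of_le_of_isSolvable hs hVN
  have : Nontrivial V := (Subgroup.nontrivial_iff_ne_bot V).2 hV1
  refine ⟨V, hVN, hV1, hVn, hVA, ?_, ?_, hm⟩
  · have h2 : ⁅V, V⁆ = ⊥ := by
      by_contra h
      have h3 := hm _ (Subgroup.commutator_le_left V V) inferInstance hVA.commutator h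
      have h4 := Group.IsSolvable.commutator_lt_top_of_nontrivial V
      rw [← Subgroup.map_subtype_commutator] at h3
      exact h4.ne (Subgroup.map_injective V.subtype_injective (by
        rw [h3, ← MonoidHom.range_eq_map, Subgroup.range_subtype]))
    intro x hx y hy
    exact (Subgroup.commutator_eq_bot_iff_le_centralizer.1 h2 hy x hx)
  · obtain ⟨p, hp, h⟩ := exists_pCore_ne_bot V
    refine ⟨p, hp, pCoreOf_eq_self_iff.1 (hm _ (pCoreOf_le p V) inferInstance (hVA.map_subtype _) ?_)⟩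
    rwa [pCoreOf_def, Ne, Subgroup.map_eq_bot_iff_of_injective _ V.subtype_injective]

end Inv

variable [Finite A] {F H : Subgroup A}

theorem Ctx.decomp (hc : Ctx F H) (p : ℕ) [Fact p.Prime] {f : A} (hf : f ∈ F) :
    ∃ x ∈ pCoreOf p F, ∃ y ∈ pPrimeCoreOf p F, x * y = f := by
  have h := fittingSubgroup_le_pCore_sup_pPrimeCore (G := F) p
  rw [fittingSubgroup_eq_top_iff.2 hc.nil] at h
  obtain ⟨x, hx, y, hy, e⟩ := Subgroup.mem_sup_of_normal_right.1 (h (Subgroup.mem_top (⟨f, hf⟩ : F)))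
  exact ⟨x, ⟨x, hx, rfl⟩, y, ⟨y, hy, rfl⟩, congrArg Subtype.val e⟩

omit [Finite A] in
theorem Ctx.kn (hc : Ctx F H) (p : ℕ) : (pPrimeCoreOf p F).Normal := by
  have := hc.normal
  infer_instance

section G
variable {G : Type*} [Group G] [Finite G] [MulDistribMulAction A G] {p : ℕ} [Fact p.Prime]

theorem coprime_K {X : Subgroup G} (hp : IsPGroup p X) :
    (Nat.card (pPrimeCoreOf p F)).Coprime (Nat.card X) := by
  obtain ⟨n, hn⟩ := hp.exists_card_eq
  rw [hn]
  exact (pPrimeCoreOf_coprime p F).pow_right n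

/-- Lemma FP -/
theorem Ctx.fp (hc : Ctx F H) (hF : ∀ g : G, (∀ f ∈ F, f • g = g) → g = 1) {X : Subgroup G} (hX : AInv A X)
    (hp : IsPGroup p X) {x : G} (hx : x ∈ X) (hK : ∀ k ∈ pPrimeCoreOf p F, k • x = x) : x = 1 := by
  have := hc.kn p
  by_contra h1
  set Y := X ⊓ fx (pPrimeCoreOf p F) G with hY
  have hYA : AInv A Y := hX.inf (ainv_fx _)
  have hd : p ∣ Nat.card Y := by
    obtain ⟨n, hn⟩ := (hp.to_inf_left (K := fx (pPrimeCoreOf p F) G)).exists_card_eq
    rcases n with _ | n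
    · exact absurd ((Subgroup.card_eq_one.1 hn).le (show x ∈ Y from ⟨hx, hK⟩)) h1
    · rw [hn]; exact dvd_pow_self p n.succ_ne_zero
  have h2 := dvd_card_fixed (pCoreOf_isPGroup p F) (fun a _ => hYA a) hd
  have h3 : Y ⊓ fx (pCoreOf p F) G = ⊥ := eq_bot_iff.2 fun y hy => hF y fun f hf => by
    obtain ⟨a, ha, b, hb, rfl⟩ := hc.decomp p hf
    rw [mul_smul, hy.1.2 b hb, hy.2 a ha]
  rw [h3, Subgroup.card_bot, Nat.dvd_one] at h2
  exact (Fact.out : p.Prime).ne_one h2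

theorem Ctx.step_F (hc : Ctx F H) (hF : ∀ g : G, (∀ f ∈ F, f • g = g) → g = 1) {V : Subgroup G} (hV : AInv A V)
    (hp : IsPGroup p V) {g : G} (hg : ∀ f ∈ F, g⁻¹ * f • g ∈ V) : g ∈ V := by
  have hK := hc.kn p
  have := hp.isNilpotent
  obtain ⟨c, h1, h2⟩ := act_exists_fixed_mem_leftCoset (A := pPrimeCoreOf p F) (N := V) (fun a => hV a)
    (coprime_K hp) (Or.inr inferInstance) (k := g) fun a => hg a (pPrimeCoreOf_le p F a.2)
  have h3 : c = 1 := hF c fun f hf => by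
    have h4 : c⁻¹ * f • c ∈ V := by
      have := V.mul_mem (V.mul_mem (V.inv_mem h2) (hg f hf)) (hV f _ h2)
      simpa [smul_mul', smul_inv', mul_assoc] using this
    have h5 : c ∈ fx (pPrimeCoreOf p F) G := fun k hk => h1 ⟨k, hk⟩
    exact (inv_mul_eq_one.1 (hc.fp hF hV hp h4 ((fx _ G).mul_mem ((fx _ G).inv_mem h5) (ainv_fx _ f c h5)))).symm
  rw [h3, mul_one] at h2
  exact V.inv_mem_iff.1 h2

theorem Ctx.step_H (hc : Ctx F H) (hF : ∀ g : G, (∀ f ∈ F, f • g = g) → g = 1) {V : Subgroup G} (hV : AInv A V)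
    (hp : IsPGroup p V) (hcm : ∀ x ∈ V, ∀ y ∈ V, x * y = y * x) {g : G} (hg : ∀ h ∈ H, g⁻¹ * h • g ∈ V) :
    ∃ c : G, (∀ h ∈ H, h • c = c) ∧ g⁻¹ * c ∈ V := by
  have hK := hc.kn p
  let _ : CommGroup V := { (inferInstance : Group V) with mul_comm := fun x y => Subtype.ext (hcm _ x.2 _ y.2) }
  let _ := subAction V hV
  obtain ⟨v, hv⟩ := exists_cocycle_eq (V := V) (K := pPrimeCoreOf p F) (E := H)
    (fun e _ k hk => hK.conj_mem k hk e) (fun e he h1 k hk => hc.fpf e he h1 k (pPrimeCoreOf_le p F hk))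
    (fun w => Subtype.ext (hc.fp hF hV hp (tr _ w).2 fun k hk => congrArg Subtype.val (smul_tr hk w)))
    (fun a => ⟨g⁻¹ * (a : A) • g, hg a a.2⟩) (fun a b => Subtype.ext (by
      change g⁻¹ * ((a : A) * b) • g = g⁻¹ * (a : A) • g * (a : A) • (g⁻¹ * (b : A) • g)
      simp [smul_mul', smul_inv', mul_smul, mul_assoc]))
  refine ⟨g * v, fun h hh => ?_, by simp⟩
  have : g⁻¹ * h • g * h • (v : G) = v := congrArg Subtype.val (hv ⟨h, hh⟩)
  rw [smul_mul', ← this]
  conv_lhs => rw [this]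
  group

theorem Ctx.exists_fixed (hc : Ctx F H) (hF : ∀ g : G, (∀ f ∈ F, f • g = g) → g = 1) {V : Subgroup G}
    (hV : AInv A V) (hp : IsPGroup p V) (hcm : ∀ x ∈ V, ∀ y ∈ V, x * y = y * x) (h1 : V ≠ ⊥) :
    ∃ c ∈ V, c ≠ 1 ∧ ∀ h ∈ H, h • c = c := by
  have hK := hc.kn p
  let _ : CommGroup V := { (inferInstance : Group V) with mul_comm := fun x y => Subtype.ext (hcm _ x.2 _ y.2) }
  let _ := subAction V hV
  by_contra hn
  refine h1 (eq_bot_iff.2 fun v hv => ?_)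
  have := pow_card_eq_one_of_tr (V := V) (K := pPrimeCoreOf p F) (E := H) (W := ⊤)
    (fun e _ k hk => hK.conj_mem k hk e) (fun e he h1 k hk => hc.fpf e he h1 k (pPrimeCoreOf_le p F hk))
    (fun _ _ _ _ => trivial) (fun _ _ _ _ => trivial)
    (fun w _ => Subtype.ext (hc.fp hF hV hp (tr _ w).2 fun k hk => congrArg Subtype.val (smul_tr hk w)))
    (fun w _ => by
      by_contra h
      exact hn ⟨_, (tr H w).2, fun e => h (Subtype.ext e), fun k hk => congrArg Subtype.val (smul_tr hk w)⟩)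
    (w := ⟨v, hv⟩) trivial
  exact congrArg Subtype.val (eq_one_of_pow_of_coprime this pow_card_eq_one' (coprime_K hp))

end G

theorem Ctx.cover_aux (hc : Ctx F H) (n : ℕ) : ∀ (G : Type u) [Group G] [Finite G] [MulDistribMulAction A G],
    Nat.card G = n → (∀ g : G, (∀ f ∈ F, f • g = g) → g = 1) → ∀ N : Subgroup G, N.Normal → AInv A N →
      Group.IsSolvable N → (∀ g : G, (∀ f ∈ F, g⁻¹ * f • g ∈ N) → g ∈ N) ∧
        ∀ g : G, (∀ h ∈ H, g⁻¹ * h • g ∈ N) → ∃ c : G, (∀ h ∈ H, h • c = c) ∧ g⁻¹ * c ∈ N := by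
  induction n using Nat.strong_induction_on with
  | _ n ih =>
  intro G _ _ _ hn hF N hN hNA hs
  by_cases h1 : N = ⊥
  · subst h1
    exact ⟨fun g hg => hF g fun f hf => (inv_mul_eq_one.1 (hg f hf)).symm,
      fun g hg => ⟨g, fun f hf => (inv_mul_eq_one.1 (hg f hf)).symm, by simp⟩⟩
  obtain ⟨V, hVN, hV1, hVn, hVA, hcm, ⟨p, hp, hpV⟩, -⟩ := exists_min hN hNA hs h1
  have := Fact.mk hp
  let _ := quotAction V hVA
  have hmem : ∀ x : G, (x : G ⧸ V) ∈ N.map (QuotientGroup.mk' V) ↔ x ∈ N := fun x => by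
    change x ∈ (N.map (QuotientGroup.mk' V)).comap (QuotientGroup.mk' V) ↔ _
    rw [Subgroup.comap_map_eq, QuotientGroup.ker_mk', sup_eq_left.2 hVN]
  obtain ⟨h2, h3⟩ := ih _ (hn ▸ card_quotient_lt hV1) (G ⧸ V) rfl (fun q hq => by
      obtain ⟨g, rfl⟩ := QuotientGroup.mk_surjective q
      exact (QuotientGroup.eq_one_iff g).2 (hc.step_F hF hVA hpV fun f hf => QuotientGroup.eq.1 (hq f hf).symm))
    (N.map (QuotientGroup.mk' V)) (hN.map _ (QuotientGroup.mk'_surjective V))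
    (by rintro a _ ⟨x, hx, rfl⟩; exact ⟨a • x, hNA a x hx, rfl⟩) (isSolvable_map_of_isSolvable hs _)
  refine ⟨fun g hg => (hmem g).1 (h2 _ fun f hf => (hmem _).2 (hg f hf)), fun g hg => ?_⟩
  obtain ⟨q, h4, h5⟩ := h3 g fun f hf => (hmem _).2 (hg f hf)
  obtain ⟨c, rfl⟩ := QuotientGroup.mk_surjective q
  obtain ⟨d, h6, h7⟩ := hc.step_H hF hVA hpV hcm (g := c) fun f hf => QuotientGroup.eq.1 (h4 f hf).symm
  refine ⟨d, h6, ?_⟩
  have := N.mul_mem ((hmem _).1 h5) (hVN h7)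
  simpa [mul_assoc] using this

section Q
variable {G : Type*} [Group G] [Finite G] [MulDistribMulAction A G]

theorem Ctx.quot_F (hc : Ctx F H) (hF : ∀ g : G, (∀ f ∈ F, f • g = g) → g = 1) {N : Subgroup G} [hN : N.Normal]
    (hNA : AInv A N) (hs : Group.IsSolvable N) :
    letI := quotAction N hNA
    ∀ q : G ⧸ N, (∀ f ∈ F, f • q = q) → q = 1 := by
  intro q hq
  obtain ⟨g, rfl⟩ := QuotientGroup.mk_surjective q
  exact (QuotientGroup.eq_one_iff g).2 ((hc.cover_aux _ G rfl hF N hN hNA hs).1 g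
    fun f hf => QuotientGroup.eq.1 (hq f hf).symm)

theorem Ctx.quot_H (hc : Ctx F H) (hF : ∀ g : G, (∀ f ∈ F, f • g = g) → g = 1) {N : Subgroup G} [hN : N.Normal]
    (hNA : AInv A N) (hs : Group.IsSolvable N) :
    letI := quotAction N hNA
    fx H (G ⧸ N) ≤ (fx H G).map (QuotientGroup.mk' N) := by
  intro q hq
  obtain ⟨g, rfl⟩ := QuotientGroup.mk_surjective q
  obtain ⟨c, h1, h2⟩ := (hc.cover_aux _ G rfl hF N hN hNA hs).2 g fun f hf => QuotientGroup.eq.1 (hq f hf).symm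
  exact ⟨c, h1, (QuotientGroup.eq.2 h2).symm⟩

end Q

end CL.Fh
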