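/-
The case without solvable invariant normal subgroups: a group on which the nilpotent normal operator group `F` acts
fixed-point-freely and all of whose proper invariant subgroups are nilpotent is itself nilpotent.
-/
import Cfsg.Agent.Fh.Cover
import Cfsg.Agent.Grp.ThompsonNPC
import Cfsg.Agent.Grp.NilpSub

set_option autoImplicit false
open Cfsg CL.Grp
open scoped Pointwise

namespace CL.Fh

variable {A : Type*} [Group A] {G : Type*} [Group G] [Finite G] [MulDistribMulAction A G]

theorem isPGroup_of_unique_prime {U : Type*} [Group U] [Finite U] {p : ℕ}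
    (h : ∀ r : ℕ, r.Prime → r ∣ Nat.card U → r = p) : IsPGroup p U :=
  IsPGroup.of_card (Nat.eq_prime_pow_of_unique_prime_dvd Nat.card_pos.ne' fun hd hd' => h _ hd hd')

theorem eq_bot_of_odd (hsub : ∀ U : Subgroup G, AInv A U → U ≠ ⊤ → Group.IsNilpotent U)
    (hNS : ∀ N : Subgroup G, N.Normal → AInv A N → Group.IsSolvable N → N = ⊥) {p : ℕ} [hp : Fact p.Prime]
    (hp2 : p ≠ 2) {X : Subgroup G} (hX : AInv A X) (hXp : IsPGroup p X) : X = ⊥ := by
  by_contra hX1
  obtain ⟨P, ⟨hPA, hPp⟩, hmax⟩ := Set.exists_max_image {P : Subgroup G | AInv A P ∧ IsPGroup p P}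
    (fun P => Nat.card P) (Set.toFinite _) ⟨X, hX, hXp⟩
  have hP1 : P ≠ ⊥ := fun h => hX1 (Subgroup.card_le_one_iff_eq_bot _ |>.1 (by
    have := hmax X ⟨hX, hXp⟩
    rwa [h, Subgroup.card_bot] at this))
  have hpr : ∀ Y : Subgroup G, AInv A Y → IsPGroup p Y → Y ≠ ⊥ → Subgroup.normalizer (Y : Set G) ≠ ⊤ :=
    fun Y h1 h2 h3 h => h3 (hNS Y (Subgroup.normalizer_eq_top_iff.1 h) h1
      (by have := h2.isNilpotent; infer_instance))
  have hN := hsub _ hPA.normalizer (hpr P hPA hPp hP1)
  have hO : P = pCoreOf p (Subgroup.normalizer (P : Set G)) :=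
    Subgroup.eq_of_le_of_card_ge (le_pCoreOf_of_isNilpotent hN hPp Subgroup.le_normalizer)
      (hmax _ ⟨hPA.normalizer.map_subtype _, pCoreOf_isPGroup _ _⟩)
  obtain ⟨S, hS⟩ := hPp.exists_le_sylow
  have hPS : P = S := by
    by_contra h
    have h1 := lt_inf_normalizer_of_isPGroup S.isPGroup' (lt_of_le_of_ne hS h)
    have h2 := le_pCoreOf_of_isNilpotent hN (S.isPGroup'.to_inf_left (K := Subgroup.normalizer (P : Set G)))
      inf_le_right
    rw [← hO] at h2
    exact h1.not_ge h2
  have hJ : AInv A (thompsonSubgroupOf p P) := by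
    have := CL.Loc.thompsonSubgroup_characteristic (p := p) (G := P)
    exact hPA.map_subtype _
  have hZ : AInv A (P ⊓ Subgroup.centralizer (P : Set G)) := hPA.inf hPA.centralizer
  have hZ1 : P ⊓ Subgroup.centralizer (P : Set G) ≠ ⊥ := by
    obtain ⟨z, hz, hz1, h⟩ := exists_central_of_isNilpotent hPp.isNilpotent le_rfl Subgroup.le_normalizer hP1
    exact fun e => hz1 (e.le (show z ∈ _ from ⟨hz, le_centralizer_singleton_iff.1 h⟩))
  have hc : HasNormalPComplement p G := by
    refine thompson_normal_p_complement hp2 S ?_ ?_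
    · rw [← hPS]
      have := hsub _ hJ.normalizer (hpr _ hJ (hPp.to_le (CL.Loc.thompsonSubgroupOf_le P))
        (CL.Loc.thompsonSubgroupOf_ne_bot_of_isPGroup hPp hP1))
      exact hasNormalPComplement_of_isNilpotent
    · rw [← hPS]
      have := hsub _ hZ.centralizer fun h => hpr _ hZ hPp.to_inf_left hZ1
        (top_le_iff.1 (h.ge.trans (Subgroup.centralizer_le_normalizer _)))
      exact hasNormalPComplement_of_isNilpotent
  have hL : AInv A (pResidual p G) := fun a x hx => smul_mem_of_characteristic _ a x hx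
  have hL1 : pResidual p G ≠ ⊤ := fun h => by
    have h1 := hasNormalPComplement_iff_not_dvd_pResidual.1 hc
    rw [h, Subgroup.card_top] at h1
    exact h1 (((hPp.card_eq_or_dvd).resolve_left fun h1 => hP1 (Subgroup.card_eq_one.1 h1)).trans
      P.card_subgroup_dvd_card)
  have hG := pResidual_eq_bot_iff.1 (hNS _ inferInstance hL (by have := hsub _ hL hL1; infer_instance))
  have h2 := hNS ⊤ inferInstance (fun _ _ _ => trivial) (by have := hG.isNilpotent; infer_instance)
  exact hP1 (eq_bot_iff.2 (le_top.trans h2.le))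

theorem exists_inv_sylow {R : Subgroup A} [hR : R.Normal] (hs : Group.IsSolvable R)
    (hf : ∀ g : G, (∀ r ∈ R, r • g = g) → g = 1)
    (hc : (Nat.card (R.map (MulDistribMulAction.toMulAut A G))).Coprime (Nat.card G)) (p : ℕ) [Fact p.Prime] :
    ∃ P : Sylow p G, AInv A (P : Subgroup G) := by
  set R' := R.map (MulDistribMulAction.toMulAut A G) with hR'
  have hs' : Group.IsSolvable R' := isSolvable_map_of_isSolvable hs _
  obtain ⟨P, hP⟩ := act_exists_sylow (A := R') (K := G) p hc (Or.inl hs')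
  have hP' : ∀ r ∈ R, ∀ x ∈ P, r • x ∈ P := fun r hr x hx => hP ⟨_, r, hr, rfl⟩ x hx
  refine ⟨P, fun a x hx => ?_⟩
  have hmem : ∀ y : G, y ∈ a • P ↔ a⁻¹ • y ∈ P := fun y =>
    Subgroup.mem_pointwise_smul_iff_inv_smul_mem
  obtain ⟨c, h1, h2⟩ := act_exists_fixed_smul_sylow_eq (A := R') (K := G) hc (Or.inl hs') P (a • P) hP (by
    rintro ⟨_, r, hr, rfl⟩ y hy
    have := hP' _ (hR.conj_mem' r hr a) _ ((hmem y).1 hy)
    rw [mul_smul, mul_smul, smul_inv_smul] at this
    exact (hmem _).2 this)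
  rw [hf c fun r hr => h1 ⟨_, r, hr, rfl⟩, one_smul] at h2
  change a • x ∈ P
  rw [h2, hmem, inv_smul_smul]
  exact hx

variable [Finite A] {F H : Subgroup A}

theorem Ctx.nonsolv (hc : Ctx F H) (hF : ∀ g : G, (∀ f ∈ F, f • g = g) → g = 1)
    (hsub : ∀ U : Subgroup G, AInv A U → U ≠ ⊤ → Group.IsNilpotent U)
    (hNS : ∀ N : Subgroup G, N.Normal → AInv A N → Group.IsSolvable N → N = ⊥) : Group.IsNilpotent G := by
  have hFn := hc.normal
  have hnil := hc.nil
  have h2 : ∀ U : Subgroup G, AInv A U → U ≠ ⊤ → ∀ r : ℕ, r.Prime → r ∣ Nat.card U → r = 2 := by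
    intro U hU hU1 r hr hd
    have := Fact.mk hr
    by_contra h
    exact pCoreOf_ne_bot_of_isNilpotent (hsub U hU hU1) hd
      (eq_bot_of_odd hsub hNS h (hU.map_subtype _) (pCoreOf_isPGroup r U))
  have hsolv : ∀ R : Subgroup A, R ≤ F → Group.IsSolvable R := fun R h =>
    isSolvable_of_le_of_isSolvable inferInstance h
  have hdv : ∀ (r : ℕ) [Fact r.Prime], r ∣ Nat.card G → r ∣ Nat.card (fx (pCoreOf r F) G) := fun r _ hd => by
    have := dvd_card_fixed (pCoreOf_isPGroup r F) (Y := (⊤ : Subgroup G)) (fun _ _ _ _ => trivial)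
      (by rwa [Subgroup.card_top])
    rwa [top_inf_eq] at this
  have hsyl : ∀ (p : ℕ) [Fact p.Prime], ∃ P : Sylow p G, AInv A (P : Subgroup G) := by
    have hK := hc.kn 2
    by_cases hK1 : fx (pPrimeCoreOf 2 F) G = ⊤
    · have hf : ∀ g : G, (∀ r ∈ pCoreOf 2 F, r • g = g) → g = 1 := fun g hg => hF g fun f hf => by
        obtain ⟨a, ha, b, hb, rfl⟩ := hc.decomp 2 hf
        rw [mul_smul, (hK1.ge (Subgroup.mem_top g)) b hb, hg a ha]
      refine exists_inv_sylow (hsolv _ (pCoreOf_le 2 F)) hf ?_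
      obtain ⟨n, hn⟩ := ((pCoreOf_isPGroup 2 F).map (MulDistribMulAction.toMulAut A G)).exists_card_eq
      rw [hn]
      refine Nat.Coprime.pow_left n ((Nat.Prime.coprime_iff_not_dvd Nat.prime_two).2 fun hd => ?_)
      have := hdv 2 hd
      rw [show fx (pCoreOf 2 F) G = ⊥ from eq_bot_iff.2 hf, Subgroup.card_bot] at this
      exact absurd this (by norm_num)
    · refine exists_inv_sylow (hsolv _ (pPrimeCoreOf_le 2 F)) (fun g hg => hc.fp hF (ainv_fx _)
        (isPGroup_of_unique_prime (h2 _ (ainv_fx _) hK1)) hg hg) (Nat.coprime_of_dvd fun r hr hd hd' => ?_)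
      have := Fact.mk hr
      have hr2 : r ≠ 2 := by
        rintro rfl
        exact (Nat.Prime.coprime_iff_not_dvd hr).1 (pPrimeCoreOf_coprime 2 F).symm
          (hd.trans (Subgroup.card_map_dvd _ _))
      have h3 : fx (pCoreOf r F) G = ⊤ := by
        by_contra h
        exact hr2 (h2 _ (ainv_fx _) h r hr (hdv r hd'))
      have h4 : (pPrimeCoreOf 2 F).map (MulDistribMulAction.toMulAut A G) ≤
          (pPrimeCoreOf r F).map (MulDistribMulAction.toMulAut A G) := by
        rintro _ ⟨k, hk, rfl⟩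
        obtain ⟨a, ha, b, hb, rfl⟩ := hc.decomp r (pPrimeCoreOf_le 2 F hk)
        refine ⟨b, hb, MulEquiv.ext fun g => ?_⟩
        change b • g = (a * b) • g
        rw [mul_smul, (h3.ge (Subgroup.mem_top (b • g))) a ha]
      exact (Nat.Prime.coprime_iff_not_dvd hr).1 (pPrimeCoreOf_coprime r F).symm
        ((hd.trans (Subgroup.card_dvd_of_le h4)).trans (Subgroup.card_map_dvd _ _))
  refine (isPGroup_of_unique_prime (p := 2) fun r hr hd => ?_).isNilpotent
  have := Fact.mk hr
  by_contra h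
  obtain ⟨P, hP⟩ := hsyl r
  exact P.ne_bot_of_dvd_card hd (eq_bot_of_odd hsub hNS h hP P.isPGroup')

end CL.Fh
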