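/-
Khukhro–Makarenko–Shumyatsky: if `C_G(F) = 1` and `C_G(H)` is nilpotent for a Frobenius group `F ⋊ H` of operators,
then `G` is nilpotent.
-/
import Cfsg.Agent.Fh.NonSolv

set_option autoImplicit false
open Cfsg CL.Grp

namespace CL.Fh

universe u

variable {A : Type*} [Group A] [Finite A] {F H : Subgroup A}

theorem Ctx.solv {G : Type*} [Group G] [Finite G] [MulDistribMulAction A G] (hc : Ctx F H)
    (hF : ∀ g : G, (∀ f ∈ F, f • g = g) → g = 1) (hnil : Group.IsNilpotent (fx H G)) {V : Subgroup G}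
    [hVn : V.Normal] (hV1 : V ≠ ⊥) (hVA : AInv A V) (hcm : ∀ x ∈ V, ∀ y ∈ V, x * y = y * x) {p : ℕ}
    [hp : Fact p.Prime] (hpV : IsPGroup p V)
    (hmin : ∀ W : Subgroup G, W ≤ V → W.Normal → AInv A W → W ≠ ⊥ → W = V)
    (hq : Group.IsNilpotent (G ⧸ V)) : Group.IsNilpotent G := by
  set C := Subgroup.centralizer (V : Set G) with hC
  suffices h : C = ⊤ from Subgroup.isNilpotent_of_ker_le_center (QuotientGroup.mk' V) (by
    rw [QuotientGroup.ker_mk']
    exact fun v hv => Subgroup.mem_center_iff.2 fun g => ((h.ge (Subgroup.mem_top g)) v hv).symm)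
  by_contra hC1
  have hCA : AInv A C := hVA.centralizer
  have hVC : V ≤ C := fun x hx y hy => hcm y hy x hx
  have hsG : Group.IsSolvable G := by
    have := hpV.isNilpotent
    exact Group.isSolvable_of_ker_le_range V.subtype (QuotientGroup.mk' V) (by simp)
  let _ := quotAction C hCA
  have hF' := hc.quot_F hF hCA inferInstance
  have hnq : Group.IsNilpotent (G ⧸ C) :=
    Group.nilpotent_of_surjective (QuotientGroup.map V C (MonoidHom.id G) hVC) fun x => by
      obtain ⟨g, rfl⟩ := QuotientGroup.mk_surjective x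
      exact ⟨g, rfl⟩
  have : Nontrivial (G ⧸ C) := QuotientGroup.nontrivial_iff.2 hC1
  obtain ⟨W, hWZ, hW1, hWn, hWA, hWc, ⟨q, hq', hqW⟩, -⟩ := exists_min (A := A) (N := Subgroup.center (G ⧸ C))
    inferInstance (fun a x hx => smul_mem_of_characteristic _ a x hx) inferInstance (by
      have := inf_center_ne_bot (G := G ⧸ C) (N := ⊤) top_ne_bot
      rwa [top_inf_eq] at this)
  have := Fact.mk hq'
  obtain ⟨c', hcW, hc1, hcH⟩ := hc.exists_fixed hF' hWA hqW hWc hW1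
  obtain ⟨c, hcH', rfl⟩ := hc.quot_H hF hCA inferInstance hcH
  set Z := W.comap (QuotientGroup.mk' C) with hZ
  have hZA : AInv A Z := fun a x hx => hWA a _ hx
  have hZc : ∀ z ∈ Z, ∀ g : G, g⁻¹ * z * g * z⁻¹ ∈ C := fun z hz g => by
    rw [← QuotientGroup.eq_one_iff]
    have := Subgroup.mem_center_iff.1 (hWZ hz) (g : G ⧸ C)
    simp only [QuotientGroup.mk'_apply] at this
    simp only [QuotientGroup.mk_mul, QuotientGroup.mk_inv]
    rw [mul_assoc _ (z : G ⧸ C), ← this]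
    group
  have hS : ∀ S : Set G, S ⊆ Z → (∀ a : A, ∀ s ∈ S, a • s ∈ S) →
      (∃ v ∈ V, v ≠ 1 ∧ ∀ s ∈ S, s * v = v * s) → S ⊆ C := by
    rintro S hSZ hSA ⟨v, hv, hv1, hvS⟩
    have := hmin (V ⊓ Subgroup.centralizer S) inf_le_left ⟨fun x hx g => ⟨hVn.conj_mem x hx.1 g, fun z hz => ?_⟩⟩
      (fun a x hx => ⟨hVA a x hx.1, fun z hz => ?_⟩) fun h => hv1 (h.le (show v ∈ _ from ⟨hv, hvS⟩))
    · exact fun s hs x hx => ((this.ge hx).2 s hs).symm
    · have h1 := hZc z (hSZ hz) g x hx.1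
      have h2 := hx.2 z hz
      calc z * (g * x * g⁻¹) = g * ((g⁻¹ * z * g * z⁻¹) * (z * x)) * g⁻¹ := by group
        _ = g * (x * (g⁻¹ * z * g * z⁻¹) * z) * g⁻¹ := by rw [h2, h1]; group
        _ = g * x * g⁻¹ * z := by group
    · have := congrArg (fun y => a • y) (hx.2 _ (hSA a⁻¹ z hz))
      simpa [smul_mul'] using this
  let _ : CommGroup V := { (inferInstance : Group V) with mul_comm := fun x y => Subtype.ext (hcm _ x.2 _ y.2) }
  let _ := subAction V hVA
  set ψ : G →* MulAut V := MulAut.conjNormal with hψ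
  have hψv : ∀ (g : G) (v : V), ((ψ g • v : V) : G) = g * v * g⁻¹ := fun _ _ => rfl
  have hψ1 : ∀ g : G, ψ g = 1 ↔ g ∈ C := fun g =>
    ⟨fun h v hv => by
      have := hψv g ⟨v, hv⟩
      rw [h, one_smul] at this
      exact (eq_mul_inv_iff_mul_eq.1 this),
    fun h => MulEquiv.ext fun v => Subtype.ext ((hψv g v).trans (mul_inv_eq_iff_eq_mul.2 (h v v.2).symm))⟩
  have hψa : ∀ (a : A) (g : G), MulDistribMulAction.toMulAut A V a * ψ g * (MulDistribMulAction.toMulAut A V a)⁻¹ =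
      ψ (a • g) := fun a g => by
    rw [mul_inv_eq_iff_eq_mul]
    refine MulEquiv.ext fun v => Subtype.ext ?_
    change a • (g * (v : G) * g⁻¹) = a • g * a • (v : G) * (a • g)⁻¹
    rw [smul_mul', smul_mul', smul_inv']
  have hUq : IsPGroup q (Z.map ψ) := by
    rintro ⟨_, z, hz, rfl⟩
    obtain ⟨k, hk⟩ := hqW ⟨_, hz⟩
    refine ⟨k, Subtype.ext ?_⟩
    change ψ z ^ q ^ k = 1
    rw [← map_pow, hψ1, ← QuotientGroup.eq_one_iff]
    exact congrArg Subtype.val hk
  have hcC : c ∉ C := fun h => hc1 ((QuotientGroup.eq_one_iff c).2 h)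
  have hpd : p ∣ Nat.card V := hpV.card_eq_or_dvd.resolve_left fun h1 => hV1 (Subgroup.card_eq_one.1 h1)
  have hqp : q ≠ p := by
    rintro rfl
    have h1 := dvd_card_fixed hUq (Y := (⊤ : Subgroup V)) (fun _ _ _ _ => trivial) (by rwa [Subgroup.card_top])
    rw [top_inf_eq] at h1
    have h2 : fx (Z.map ψ) V ≠ ⊥ := fun h => by
      rw [h, Subgroup.card_bot, Nat.dvd_one] at h1
      exact hq'.ne_one h1
    obtain ⟨⟨v, hv⟩, hv1⟩ := Subgroup.ne_bot_iff_exists_ne_one.1 h2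
    refine hcC (hS Z le_rfl hZA ⟨v, v.2, fun h => hv1 (Subtype.ext (Subtype.ext h)), fun z hz => ?_⟩ hcW)
    exact mul_inv_eq_iff_eq_mul.1 ((hψv z v).symm.trans (congrArg Subtype.val (hv _ ⟨z, hz, rfl⟩)))
  obtain ⟨k, hk⟩ := exists_pow_orderOf_coprime hp.out c
  have hdZ : c ^ p ^ k ∈ Z := Z.pow_mem hcW _
  have : Nontrivial V := (Subgroup.nontrivial_iff_ne_bot V).2 hV1
  have hK := hc.kn p
  obtain ⟨v, hv1, hv⟩ := key (V := V) (K := pPrimeCoreOf p F) (H := H)
    (fun e he h1 k hk => hc.fpf e he h1 k (pPrimeCoreOf_le p F hk))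
    (fun v hv => Subtype.ext (hc.fp hF hVA hpV v.2 fun k hk => congrArg Subtype.val (hv k hk)))
    (coprime_K hpV) (U := Z.map ψ) (by
      rintro _ ⟨x, hx, rfl⟩ _ ⟨y, -, rfl⟩
      have := (hψ1 _).2 (hZc x hx y)
      rw [map_mul, map_mul, map_mul, map_inv, map_inv, mul_inv_eq_one, mul_assoc, inv_mul_eq_iff_eq_mul] at this
      exact this)
    (IsPGroup.coprime_card_of_ne q p hqp _ _ hUq hpV)
    (by
      rintro a _ ⟨x, hx, rfl⟩
      exact ⟨a • x, hZA a x hx, (hψa a x).symm⟩)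
    (u := ψ (c ^ p ^ k)) ⟨_, hdZ, rfl⟩ (fun v hv => Subtype.ext ((hψv _ v).trans (mul_inv_eq_iff_eq_mul.2
      (commute_of_mem_isNilpotent hnil ((fx H G).pow_mem hcH' _)
        (show (v : G) ∈ fx H G from fun h hh => congrArg Subtype.val (hv h hh))
        (orderOf_coprime_of_mem_isPGroup hpV v.2 hk.symm).symm).eq)))
  have h1 : c ^ p ^ k ∈ C := hS (Set.range fun a : A => a • c ^ p ^ k) (by
      rintro _ ⟨a, rfl⟩; exact hZA a _ hdZ) (by
      rintro a _ ⟨b, rfl⟩; exact ⟨a * b, mul_smul a b _⟩)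
    ⟨v, v.2, fun h => hv1 (Subtype.ext h), by
      rintro _ ⟨a, rfl⟩
      have := hv a
      rw [hψa] at this
      exact mul_inv_eq_iff_eq_mul.1 ((hψv _ v).symm.trans (congrArg Subtype.val this))⟩ ⟨1, one_smul A _⟩
  obtain ⟨j, hj⟩ := hqW ⟨_, hcW⟩
  refine hc1 (eq_one_of_pow_of_coprime (n := q ^ j) (m := p ^ k) (congrArg Subtype.val hj) ?_
    (Nat.Coprime.pow j k ((Nat.coprime_primes hq' hp.out).2 hqp)))
  rw [← map_pow]
  exact (QuotientGroup.eq_one_iff _).2 h1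

theorem Ctx.main (hc : Ctx F H) (n : ℕ) : ∀ (G : Type u) [Group G] [Finite G] [MulDistribMulAction A G],
    Nat.card G = n → (∀ g : G, (∀ f ∈ F, f • g = g) → g = 1) → Group.IsNilpotent (fx H G) →
      Group.IsNilpotent G := by
  induction n using Nat.strong_induction_on with
  | _ n ih =>
  intro G _ _ _ hn hF hnil
  by_cases h : ∃ N : Subgroup G, N.Normal ∧ AInv A N ∧ Group.IsSolvable N ∧ N ≠ ⊥
  · obtain ⟨N, h1, h2, h3, h4⟩ := h
    obtain ⟨V, hVN, hV1, hVn, hVA, hcm, ⟨p, hp, hpV⟩, hmin⟩ := exists_min h1 h2 h3 h4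
    have := Fact.mk hp
    have hs : Group.IsSolvable V := isSolvable_of_le_of_isSolvable h3 hVN
    let _ := quotAction V hVA
    exact hc.solv hF hnil hV1 hVA hcm hpV hmin (ih _ (hn ▸ card_quotient_lt hV1) (G ⧸ V) rfl
      (hc.quot_F hF hVA hs) (isNilpotent_of_le (isNilpotent_map hnil _) (hc.quot_H hF hVA hs)))
  · refine hc.nonsolv hF (fun U hU hU1 => ?_) fun N h1 h2 h3 => by_contra fun h4 => h ⟨N, h1, h2, h3, h4⟩
    let _ := subAction U hU
    refine ih _ (hn ▸ card_subgroup_lt hU1) U rfl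
      (fun g hg => Subtype.ext (hF _ fun f hf => congrArg Subtype.val (hg f hf)))
      (isNilpotent_map_subtype_iff.1 (isNilpotent_of_le hnil ?_))
    rintro _ ⟨x, hx, rfl⟩ f hf
    exact congrArg Subtype.val (hx f hf)

end CL.Fh
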